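import Cfsg.Agent.Lib.OOL.KI.KI9
import Cfsg.Agent.Lib.OOL.SC.ZJD2
import Cfsg.Agent.Lib.OOL.StableAb2
import Cfsg.Agent.Lib.OOL.FC5

set_option autoImplicit false
set_option linter.unusedSectionVars false
set_option linter.style.haveILetI false
set_option linter.unusedVariables false

open Pointwise
open scoped commutatorElement
open Subgroup Cfsg CfsgLib.CT1 CfsgLib.ConjFam CfsgLib.FCtl CfsgLib.TCt CfsgLib.OOL CfsgLib.SCl CfsgLib.Solv

namespace CfsgLib.KI

universe u v

section Stable

variable {p : ℕ} [hpf : Fact p.Prime]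

/-- Stability in the normalizer form transports along isomorphisms. -/
theorem npstable_of_equiv {A B : Type*} [Group A] [Group B] [Finite A] [Finite B] (e : A ≃* B)
    (h : IsNormalizerPStable p A) : IsNormalizerPStable p B := by
  classical
  intro P hP g hg hq
  obtain ⟨P', hP'd⟩ : ∃ P', P' = P.comap e.toMonoidHom := ⟨_, rfl⟩
  have hmem : ∀ a, a ∈ P' ↔ e a ∈ P := by
    intro a
    rw [hP'd]
    rfl
  have hP'p : IsPGroup p P' := by
    rw [hP'd]
    exact hP.comap_of_injective _ e.injective
  have hg' : e.symm g ∈ normalizer (P' : Set A) := by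
    rw [mem_normalizer_iff]
    intro a
    rw [hmem, hmem, map_mul, map_mul, map_inv, e.apply_symm_apply]
    exact (mem_normalizer_iff.mp hg _)
  have hq' : ⁅⁅P', zpowers (e.symm g)⁆, zpowers (e.symm g)⁆ = ⊥ := by
    have hPm : P' = P.map e.symm.toMonoidHom := by
      ext a
      rw [hmem]
      constructor
      · intro ha
        exact ⟨e a, ha, by simp⟩
      · rintro ⟨b, hb, rfl⟩
        simpa using hb
    have hz : zpowers (e.symm g) = (zpowers g).map e.symm.toMonoidHom := by
      rw [MonoidHom.map_zpowers]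
      rfl
    rw [hPm, hz, ← Subgroup.map_commutator, ← Subgroup.map_commutator, hq, Subgroup.map_bot]
  have h1 := h P' hP'p _ hg' hq'
  have hfN : ∀ x : normalizer (P' : Set A), e x ∈ normalizer (P : Set B) := by
    rintro ⟨x, hx⟩
    rw [mem_normalizer_iff]
    intro y
    have h2 := (mem_normalizer_iff.mp hx) (e.symm y)
    rw [hmem, hmem, map_mul, map_mul, map_inv, e.apply_symm_apply] at h2
    exact h2
  let f : normalizer (P' : Set A) →* normalizer (P : Set B) :=
    (e.toMonoidHom.comp (normalizer (P' : Set A)).subtype).codRestrict _ hfN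
  have hfs : Function.Surjective f := by
    rintro ⟨y, hy⟩
    refine ⟨⟨e.symm y, ?_⟩, ?_⟩
    · rw [mem_normalizer_iff]
      intro a
      rw [hmem, hmem, map_mul, map_mul, map_inv, e.apply_symm_apply]
      exact mem_normalizer_iff.mp hy _
    · apply Subtype.ext
      show e (e.symm y) = y
      exact e.apply_symm_apply y
  have hle : (centralizer (P' : Set A)).subgroupOf (normalizer (P' : Set A)) ≤
      ((centralizer (P : Set B)).subgroupOf (normalizer (P : Set B))).comap f := by
    rintro ⟨x, hx⟩ hxc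
    rw [Subgroup.mem_comap, Subgroup.mem_subgroupOf]
    rw [Subgroup.mem_subgroupOf] at hxc
    show e x ∈ centralizer (P : Set B)
    rw [mem_centralizer_iff]
    intro y hy
    have h3 := mem_centralizer_iff.mp hxc (e.symm y) ((hmem _).mpr (by simpa using hy))
    have h4 := congrArg e h3
    simpa using h4
  let φ := QuotientGroup.map _ _ f hle
  have hφs : Function.Surjective φ := by
    intro y
    obtain ⟨y₀, rfl⟩ := QuotientGroup.mk'_surjective _ y
    obtain ⟨x, rfl⟩ := hfs y₀
    exact ⟨QuotientGroup.mk x, rfl⟩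
  haveI h2 : (pCore p (normalizer (P' : Set A) ⧸ (centralizer (P' : Set A)).subgroupOf (normalizer (P' : Set A)))).Normal :=
    CfsgLib.PLocal.pCore_normal'
  have h3 : ((pCore p (normalizer (P' : Set A) ⧸ (centralizer (P' : Set A)).subgroupOf (normalizer (P' : Set A)))).map φ).Normal :=
    Subgroup.Normal.map h2 φ hφs
  have h4 : IsPGroup p ((pCore p (normalizer (P' : Set A) ⧸ (centralizer (P' : Set A)).subgroupOf (normalizer (P' : Set A)))).map φ) :=
    (CfsgLib.PLocal.pCore_isPGroup).map φ
  have h5 := CfsgLib.PLocal.le_pCore_of_normal _ h3 h4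
  refine h5 ⟨_, h1, ?_⟩
  show QuotientGroup.mk (f ⟨e.symm g, hg'⟩) = _
  congr 1
  apply Subtype.ext
  show e (e.symm g) = g
  exact e.apply_symm_apply g

variable {G : Type*} [Group G] [Finite G]

/-- A quadratic element on a chief factor acts trivially in a stable quotient. -/
theorem stable_chief_comm {U V : Subgroup G} [hVn : V.Normal] (hUV : IsChiefFactor U V) (hU : IsPGroup p U)
    (hst : IsNormalizerPStable p (G ⧸ V)) {g : G}
    (hq : ⁅⁅U, zpowers g⁆, zpowers g⁆ ≤ V) : ⁅U, zpowers g⁆ ≤ V := by
  classical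
  haveI hUn : U.Normal := hUV.2.1
  have hs : IsPStableOnSection p U V := section_stable_of_quot U V
    (fun {hn} => isPStableOn_of_normalizerPStable hst (U.map (QuotientGroup.mk' V)) (hU.map _)) hUn
  obtain ⟨D, hDn, hKD, ⟨k, hk⟩, hgD⟩ := hs g hq
  haveI hDn' := hDn
  haveI hCn : (sectionKernel U V).Normal := sectionKernel_normal
  let S₀ : Sylow p G := default
  have hUS : U ≤ (S₀ : Subgroup G) := hU.le_sylow_of_normal S₀
  have hDp : IsPGroup p (D.map (QuotientGroup.mk' (sectionKernel U V))) := by
    rintro ⟨_, d, hd, rfl⟩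
    refine ⟨k, Subtype.ext ?_⟩
    have h1 : (⟨d, hd⟩ : D) ^ ((sectionKernel U V).subgroupOf D).index ∈ (sectionKernel U V).subgroupOf D :=
      Subgroup.pow_index_mem _ _
    have h2 : ((sectionKernel U V).subgroupOf D).index = p ^ k := hk
    rw [h2] at h1
    have h3 : d ^ p ^ k ∈ sectionKernel U V := h1
    show (QuotientGroup.mk' (sectionKernel U V) d) ^ p ^ k = 1
    rw [← map_pow, ← MonoidHom.mem_ker, QuotientGroup.ker_mk']
    exact h3
  haveI hDm : (D.map (QuotientGroup.mk' (sectionKernel U V))).Normal := hDn.map _ (QuotientGroup.mk'_surjective _)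
  let Tb : Sylow p (G ⧸ sectionKernel U V) := S₀.mapSurjective (f := QuotientGroup.mk' (sectionKernel U V)) (QuotientGroup.mk'_surjective _)
  have hle : D.map (QuotientGroup.mk' (sectionKernel U V)) ≤ (Tb : Subgroup (G ⧸ sectionKernel U V)) :=
    hDp.le_sylow_of_normal Tb
  have hw : ∀ w ∈ D, ∃ s ∈ (S₀ : Subgroup G), ∃ y, (∀ u ∈ U, ⁅u, y⁆ ∈ V) ∧ w = s * y := by
    intro w hw
    have h1 := hle ⟨w, hw, rfl⟩
    obtain ⟨s, hs, hse⟩ := h1
    refine ⟨s, hs, s⁻¹ * w, ?_, by group⟩
    have h2 : s⁻¹ * w ∈ sectionKernel U V := by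
      rw [← QuotientGroup.ker_mk' (sectionKernel U V), MonoidHom.mem_ker, map_mul, map_inv]
      have h3 : QuotientGroup.mk' (sectionKernel U V) s = QuotientGroup.mk' (sectionKernel U V) w := hse
      rw [h3]
      simp
    exact mem_sectionKernel_iff.mp h2
  have hmain := normal_acts_trivially (S₀ : Subgroup G) S₀.isPGroup' hUV hUS D hw
  rw [Subgroup.commutator_le]
  intro u hu z hz
  exact hmain z ((zpowers_le.mpr hgD) hz) u hu

end Stable

section Ctl

variable {p : ℕ} [hpf : Fact p.Prime]

/-- The K-infinity subgroups are normal in constrained groups with stable quotients. -/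
theorem ki_normal_of_stable {Γ : Type u} [Group Γ] [Finite Γ]
    (hC : centralizer (pCore p Γ : Set Γ) ≤ pCore p Γ)
    (hst : ∀ (V : Subgroup Γ) [V.Normal], IsNormalizerPStable p (Γ ⧸ V)) (T : Sylow p Γ) :
    (inducedFunctor kInfLower (T : Subgroup Γ)).Normal ∧ (inducedFunctor kInfUpper (T : Subgroup Γ)).Normal := by
  by_contra hno
  have hK := not_and_or.mp hno
  haveI hTn : (pCore p Γ).Normal := CfsgLib.PLocal.pCore_normal'
  have hTp : IsPGroup p (pCore p Γ) := CfsgLib.PLocal.pCore_isPGroup
  obtain ⟨A, hAn, hAT, hA2, hTA, hTC⟩ := exists_critical_core (pCore p Γ) hTp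
  haveI := hAn
  obtain ⟨g, hg, hgT, h3, h2, U, V, hUV, hUA, h4, h5⟩ := ki_chief T A hAT hA2 hTA hTC hC hK
  haveI := hUV.2.2.1
  exact h5 (stable_chief_comm hUV (hTp.to_le (hUA.trans hAT)) (hst V) h4)

/-- Control of strong fusion from normality in the constrained sections. -/
theorem ctl_of_stable {G : Type u} [Group G] [Finite G]
    (hst : ∀ (K R : Subgroup G) [hR : (R.subgroupOf K).Normal], IsNormalizerPStable p (K ⧸ R.subgroupOf K))
    {W : ∀ (Q : Type u) [Group Q], Subgroup Q} (hW : IsCharPFunctor.{u} p W)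
    (hN : ∀ (Γ : Type u) [Group Γ] [Finite Γ], centralizer (pCore p Γ : Set Γ) ≤ pCore p Γ →
      (∀ (V : Subgroup Γ) [V.Normal], IsNormalizerPStable p (Γ ⧸ V)) → ∀ T : Sylow p Γ,
      (inducedFunctor W (T : Subgroup Γ)).Normal) (S : Sylow p G) :
    ControlsStrongFusion p (inducedFunctor W (S : Subgroup G)) := by
  have hS := SecFun.ofChar hW
  have hfc : FC (fun _ : Unit => (fun Γ _ T => inducedFunctor (G := Γ) W T)) p G := by
    refine fc_of_sections (fun _ => hS) G ?_ G secX_self
    intro K' R' hR' hfin hc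
    have T₀ : Sylow p (K' ⧸ R'.subgroupOf K') := default
    refine fc_of_normal () T₀ (hN _ hc ?_ T₀)
    intro V hV
    have hs : SecX ((K' ⧸ R'.subgroupOf K') ⧸ V) G :=
      SecX.trans (SecX.of_surjective (QuotientGroup.mk' V) (QuotientGroup.mk'_surjective V) secX_self)
        (SecX.of_section K' R' hR' ⟨MulEquiv.refl _⟩)
    obtain ⟨K, L, hL, ⟨e⟩⟩ := SecX.top hs
    haveI := hL
    haveI : Finite ((K' ⧸ R'.subgroupOf K') ⧸ V) := inferInstance
    exact npstable_of_equiv e (hst K L)
  exact single_control hS (yc_of_fc (fun _ => hS) hfc) S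

/-- The lower K-infinity subgroup controls strong fusion in a stable group. -/
theorem ctl_lower {G : Type u} [Group G] [Finite G]
    (hst : ∀ (K R : Subgroup G) [hR : (R.subgroupOf K).Normal], IsNormalizerPStable p (K ⧸ R.subgroupOf K))
    (S : Sylow p G) : ControlsStrongFusion p (inducedFunctor kInfLower (S : Subgroup G)) :=
  ctl_of_stable hst kInfLower_char (fun Γ _ _ hC h T => (ki_normal_of_stable hC h T).1) S

/-- The upper K-infinity subgroup controls strong fusion in a stable group. -/
theorem ctl_upper {G : Type u} [Group G] [Finite G]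
    (hst : ∀ (K R : Subgroup G) [hR : (R.subgroupOf K).Normal], IsNormalizerPStable p (K ⧸ R.subgroupOf K))
    (S : Sylow p G) : ControlsStrongFusion p (inducedFunctor kInfUpper (S : Subgroup G)) :=
  ctl_of_stable hst kInfUpper_char (fun Γ _ _ hC h T => (ki_normal_of_stable hC h T).2) S

end Ctl

section SelfCent

variable {G : Type u} [Group G] [Finite G] {p : ℕ} [hpf : Fact p.Prime]

theorem rOdd_succ_le (H : Subgroup G) (n : ℕ) : rOdd H (n + 1) ≤ rOdd H n := by
  induction n with
  | zero => exact relU_le _ _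
  | succ n IH =>
    show relU H (relL H (rOdd H (n + 1))) ≤ relU H (relL H (rOdd H n))
    exact relU_anti H (relL_anti H IH)

theorem rEven_succ_le (H : Subgroup G) (n : ℕ) : rEven H n ≤ rEven H (n + 1) :=
  relL_anti H (rOdd_succ_le H n)

theorem rEven_mono (H : Subgroup G) : Monotone (rEven H) :=
  monotone_nat_of_le_succ (rEven_succ_le H)

theorem exists_rEven_eq (H : Subgroup G) : ∃ n, ⨆ m, rEven H m = rEven H n := by
  have hne : (Set.range (rEven H)).Nonempty := ⟨_, ⟨0, rfl⟩⟩
  obtain ⟨_, ⟨⟨n, rfl⟩, hmax⟩⟩ := Set.Finite.exists_maximal (Set.toFinite _) hne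
  refine ⟨n, le_antisymm (iSup_le fun m => ?_) (le_iSup _ n)⟩
  have h1 : rEven H n ≤ rEven H (max n m) := rEven_mono H (le_max_left _ _)
  have h2 : rEven H m ≤ rEven H (max n m) := rEven_mono H (le_max_right _ _)
  exact h2.trans (hmax ⟨_, rfl⟩ h1)

theorem abelian_mem_lower {E Q : Subgroup G} (hE : ∀ x ∈ E, ∀ y ∈ E, x * y = y * x) (hQ : Q ≤ normalizer (E : Set G)) :
    E ∈ kLowerStarFamily Q := by
  have hEC : E ≤ centralizer (E : Set G) := by
    intro x hx
    rw [mem_centralizer_iff]
    intro y hy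
    exact hE y hy x hx
  refine ⟨?_, hQ, ?_⟩
  · show ⁅E, E⁆ ≤ _
    rw [Subgroup.commutator_le]
    intro x hx y hy
    have := commutatorElement_eq_one_iff_mul_comm.mpr (hE x hx y hy)
    rw [this]
    exact one_mem _
  · intro A _ hAQ _ _ _
    have h1 : ⁅E, A⁆ ≤ E := comm_le_left_of_norm (hAQ.trans hQ)
    exact le_inf h1 (h1.trans hEC)

/-- The lower K-infinity subgroup contains its centralizer in the Sylow subgroup. -/
theorem lower_self_cent {S : Subgroup G} (hS : IsPGroup p S) :
    S ⊓ centralizer ((inducedFunctor kInfLower S : Subgroup G) : Set G) ≤ inducedFunctor kInfLower S := by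
  classical
  obtain ⟨L, hLd⟩ : ∃ L, L = inducedFunctor kInfLower S := ⟨_, rfl⟩
  rw [← hLd]
  obtain ⟨n, hn⟩ := exists_rEven_eq S
  have hLe : L = relL S (rOdd S n) := by
    rw [hLd, induced_lower_eq, hn]
    rfl
  have hUS : rOdd S n ≤ S := by
    cases n with
    | zero => exact le_rfl
    | succ n => exact relU_le _ _
  have hLS : L ≤ S := by
    rw [hLe]
    exact relL_le _ _
  have hSL : S ≤ normalizer (L : Set G) := by
    rw [hLd]
    exact le_W_norm (SecFun.ofChar kInfLower_char) hS
  obtain ⟨D, hDd⟩ : ∃ D, D = S ⊓ centralizer (L : Set G) := ⟨_, rfl⟩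
  obtain ⟨Z, hZd⟩ : ∃ Z, Z = L ⊓ centralizer (L : Set G) := ⟨_, rfl⟩
  rw [← hDd]
  have hZD : Z ≤ D := by
    rw [hZd, hDd]
    exact inf_le_inf_right _ hLS
  have hSZ : S ≤ normalizer (Z : Set G) := by
    rw [hZd]
    exact center_norm hSL
  have hSD : S ≤ normalizer (D : Set G) := by
    rw [hDd]
    intro s hs
    apply norm_inf_le (le_normalizer hs)
    apply norm_of_conj_le
    intro z hz
    exact CfsgLib.OOL.normalizes_centralizer (hSL hs) hz
  have hDS : D ≤ S := by
    rw [hDd]
    exact inf_le_left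
  have hZL : Z ≤ L := by
    rw [hZd]
    exact inf_le_left
  by_cases heq : Z = D
  · rw [← heq]
    exact hZL
  · exfalso
    obtain ⟨y, hyD, hyZ, hys, -⟩ := CfsgLib.OOL.exists_central_mod (p := p) hS hZD heq hDS hSZ hSD
    have hyC : y ∈ centralizer (L : Set G) := by
      rw [hDd] at hyD
      exact (mem_inf.mp hyD).2
    obtain ⟨E, hEd⟩ : ∃ E, E = closure (insert y (Z : Set G)) := ⟨_, rfl⟩
    have hZcomm : ∀ a ∈ Z, ∀ b ∈ Z, a * b = b * a := by
      intro a ha b hb
      rw [hZd] at ha
      exact ((mem_centralizer_iff.mp (mem_inf.mp ha).2 b (hZL hb))).symm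
    have hEab : ∀ a ∈ E, ∀ b ∈ E, a * b = b * a := by
      rw [hEd]
      apply comm_closure_insert
      · exact hZcomm
      · intro a ha
        exact (mem_centralizer_iff.mp hyC a (hZL ha))
    have hES : E ≤ S := by
      rw [hEd, closure_le]
      rintro x (rfl | hx)
      · exact hDS hyD
      · exact hDS (hZD hx)
    have hyE : y ∈ E := by
      rw [hEd]
      exact subset_closure (Set.mem_insert _ _)
    have hZE : Z ≤ E := by
      intro z hz
      rw [hEd]
      exact subset_closure (Set.mem_insert_of_mem _ hz)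
    have hSE : S ≤ normalizer (E : Set G) := by
      intro s hs
      apply norm_of_conj_le
      intro z hz
      rw [hEd] at hz
      induction hz using closure_induction with
      | mem x hx =>
        rcases hx with rfl | hx
        · have e : s * x * s⁻¹ = ⁅s, x⁆ * x := by
            simp only [commutatorElement_def]
            group
          rw [e]
          refine mul_mem (hZE ?_) hyE
          have h1 := hys s hs
          have e2 : ⁅s, x⁆ = ⁅x, s⁆⁻¹ := (commutatorElement_inv x s).symm
          rw [e2]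
          exact inv_mem h1
        · exact hZE ((mem_normalizer_iff.mp (hSZ hs) x).mp hx)
      | one => simp [one_mem]
      | mul a b _ _ ha hb =>
        have e : s * (a * b) * s⁻¹ = (s * a * s⁻¹) * (s * b * s⁻¹) := by group
        rw [e]
        exact mul_mem ha hb
      | inv a _ ha =>
        have e : s * a⁻¹ * s⁻¹ = (s * a * s⁻¹)⁻¹ := by group
        rw [e]
        exact inv_mem ha
    have hEL : E ≤ L := by
      rw [hLe]
      exact le_relL (abelian_mem_lower hEab (hUS.trans hSE)) hES
    apply hyZ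
    rw [hZd]
    exact mem_inf.mpr ⟨hEL hyE, hyC⟩

/-- The normalizer of the lower K-infinity subgroup has a normal complement when it induces a `p`-group. -/
theorem np_of_cent_lower (S : Sylow p G)
    (h : ∀ g ∈ normalizer ((inducedFunctor kInfLower (S : Subgroup G) : Subgroup G) : Set G), (orderOf g).Coprime p →
      g ∈ centralizer ((inducedFunctor kInfLower (S : Subgroup G) : Subgroup G) : Set G)) :
    HasNormalPComplement p (normalizer ((inducedFunctor kInfLower (S : Subgroup G) : Subgroup G) : Set G)) := by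
  classical
  obtain ⟨L, hLd⟩ : ∃ L, L = inducedFunctor kInfLower (S : Subgroup G) := ⟨_, rfl⟩
  rw [← hLd] at h ⊢
  have hSN : (S : Subgroup G) ≤ normalizer (L : Set G) := by
    rw [hLd]
    exact le_W_norm (SecFun.ofChar kInfLower_char) S.isPGroup'
  have hSC : (S : Subgroup G) ⊓ centralizer (L : Set G) ≤ L := by
    rw [hLd]
    exact lower_self_cent S.isPGroup'
  have hLS : L ≤ (S : Subgroup G) := by
    rw [hLd]
    exact (SecFun.ofChar kInfLower_char).le G S S.isPGroup'
  have hLp : IsPGroup p L := S.isPGroup'.to_le hLS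
  refine ⟨S.subtype hSN, ?_⟩
  refine (CfsgLib.Trans.frobenius_criterion (S.subtype hSN)).2 ?_
  · intro Q hQ g hg hcop
    rw [mem_centralizer_iff]
    intro q hq
    have hqS : (q : G) ∈ (S : Subgroup G) := by
      have := hQ hq
      rw [Sylow.coe_subtype] at this
      exact this
    have hgc : (orderOf (g : G)).Coprime p := by
      rw [Subgroup.orderOf_coe]
      exact hcop
    have hgC := h (g : G) g.2 hgc
    have hcomm : ⁅(q : G), (g : G)⁆ ∈ (S : Subgroup G) := by
      have h1 : ⁅q, g⁆ ∈ Q := by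
        have e : ⁅q, g⁆ = q * (g * q⁻¹ * g⁻¹) := by
          simp only [commutatorElement_def]
          group
        rw [e]
        exact mul_mem hq ((mem_normalizer_iff.mp hg _).mp (inv_mem hq))
      have h2 := hQ h1
      rw [Sylow.coe_subtype] at h2
      exact h2
    have hcommC : ⁅(q : G), (g : G)⁆ ∈ centralizer (L : Set G) := by
      have e : ⁅(q : G), (g : G)⁆ = ((q : G) * g * (q : G)⁻¹) * (g : G)⁻¹ := by
        simp only [commutatorElement_def]
      rw [e]
      exact mul_mem (CfsgLib.OOL.normalizes_centralizer q.2 hgC) (inv_mem hgC)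
    have h5 : ⁅(q : G), (g : G)⁆ ∈ L := hSC (mem_inf.mpr ⟨hcomm, hcommC⟩)
    have h6 := coprime_fix_step hLp hgc h5 (fun e he => (mem_centralizer_iff.mp hgC e he).symm)
    have h7 := commutatorElement_eq_one_iff_mul_comm.mp h6
    apply Subtype.ext
    simpa using h7

end SelfCent

end CfsgLib.KI
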