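import Cfsg.Agent.Lib.OOL.KI.KI10
import Cfsg.Agent.Lib.OOL.QdCtl

set_option autoImplicit false
set_option linter.unusedSectionVars false
set_option linter.style.haveILetI false
set_option linter.unusedVariables false

open Pointwise
open scoped commutatorElement MatrixGroups Matrix
open Subgroup Cfsg CfsgLib.CT1 CfsgLib.ConjFam CfsgLib.FCtl CfsgLib.TCt CfsgLib.OOL CfsgLib.SCl CfsgLib.Solv

namespace CfsgLib.KI

universe u v

section Cube

variable {Γ : Type*} [Group Γ] {p : ℕ} [hpf : Fact p.Prime]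

/-- Groups of order `p ^ 3` have class at most two. -/
theorem class2_of_card_cube {P : Subgroup Γ} (hP : Nat.card P = p ^ 3) : P ∈ classTwoSubgroups Γ := by
  classical
  have hpG : IsPGroup p P := IsPGroup.of_card hP
  haveI : Finite P := Nat.finite_of_card_ne_zero (by rw [hP]; exact pow_ne_zero _ hpf.out.ne_zero)
  haveI : Nontrivial P := by
    apply Finite.one_lt_card_iff_nontrivial.mp
    rw [hP]
    exact Nat.one_lt_pow (by norm_num) hpf.out.one_lt
  obtain ⟨k, hk0, hk⟩ := IsPGroup.card_center_eq_prime_pow (p := p) (n := 3) hP (by norm_num)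
  have hcomm : ∀ a b : P, ⁅a, b⁆ ∈ center P := by
    have hQcard : Nat.card (P ⧸ center P) * Nat.card (center P) = p ^ 3 := by
      rw [mul_comm, ← hP]
      exact (Subgroup.card_mul_index (center P))
    have hdvd : Nat.card (P ⧸ center P) ∣ p ^ 2 := by
      have h1 : Nat.card (P ⧸ center P) ∣ p ^ 3 := ⟨_, hQcard.symm⟩
      obtain ⟨j, hj3, hj⟩ := (Nat.dvd_prime_pow hpf.out).mp h1
      rw [hj] at hQcard ⊢
      rw [hk, ← pow_add] at hQcard
      have h2 := Nat.pow_right_injective hpf.out.two_le hQcard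
      exact pow_dvd_pow p (by omega)
    have hQc : ∀ x y : P ⧸ center P, x * y = y * x := by
      obtain ⟨j, hj2, hj⟩ := (Nat.dvd_prime_pow hpf.out).mp hdvd
      have hcases : j = 0 ∨ j = 1 ∨ j = 2 := by omega
      rcases hcases with rfl | rfl | rfl
      · rw [pow_zero] at hj
        haveI := (Nat.card_eq_one_iff_unique.mp hj).1
        intro x y
        exact Subsingleton.elim _ _
      · rw [pow_one] at hj
        haveI := isCyclic_of_prime_card (p := p) (α := P ⧸ center P) hj
        exact fun x y => (IsCyclic.commGroup (α := P ⧸ center P)).mul_comm x y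
      · haveI := IsPGroup.isMulCommutative_of_card_eq_prime_sq hj
        exact fun x y => mul_comm' x y
    intro a b
    have h1 := hQc (QuotientGroup.mk a) (QuotientGroup.mk b)
    have h2 : (QuotientGroup.mk ⁅a, b⁆ : P ⧸ center P) = 1 := by
      rw [commutatorElement_def]
      simp only [QuotientGroup.mk_mul, QuotientGroup.mk_inv]
      rw [h1]
      group
    exact (QuotientGroup.eq_one_iff _).mp h2
  show ⁅P, P⁆ ≤ centralizer (P : Set Γ)
  rw [Subgroup.commutator_le]
  intro a ha b hb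
  rw [mem_centralizer_iff]
  intro c hc
  have h1 := hcomm ⟨a, ha⟩ ⟨b, hb⟩
  have h2 := (Subgroup.mem_center_iff.mp h1) ⟨c, hc⟩
  exact congrArg Subtype.val h2

/-- Class-two subgroups belong to their lower families. -/
theorem class2_mem_lower {T Q : Subgroup Γ} (hT : T ∈ classTwoSubgroups Γ) (hQ : Q ≤ T) : T ∈ kLowerStarFamily Q := by
  refine ⟨hT, hQ.trans le_normalizer, ?_⟩
  intro A _ hAQ _ _ _
  have h1 : ⁅T, A⁆ ≤ ⁅T, T⁆ := Subgroup.commutator_mono le_rfl (hAQ.trans hQ)
  refine le_inf ?_ (h1.trans hT)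
  exact comm_le_left_of_norm ((hAQ.trans hQ).trans le_normalizer)

end Cube

section Model

variable {p : ℕ} [hpf : Fact p.Prime]

theorem induced_lower_of_class2 {Γ : Type u} [Group Γ] {T : Subgroup Γ} (hT : T ∈ classTwoSubgroups Γ) :
    T ≤ inducedFunctor kInfLower T := by
  rw [induced_lower_eq]
  refine le_trans ?_ (le_iSup _ 0)
  exact le_relL (class2_mem_lower hT le_rfl) le_rfl

theorem no_control_lower_model {Γ : Type u} [Group Γ] [Finite Γ] (τ : VecP p →* Γ) (ε : SLE (ZMod p) →* Γ)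
    (hτ : Function.Injective τ) (hc : ∀ A v, ε A * τ v * (ε A)⁻¹ = τ (vecAct A v))
    (hdec : ∀ x, ∃ v A, x = τ v * ε A) (hin : ∀ v A, τ v = ε A → A = 1) (T : Sylow p Γ) :
    ¬ ControlsStrongFusion p (inducedFunctor kInfLower (T : Subgroup Γ)) := by
  classical
  have hp1 := hpf.out.one_lt
  obtain ⟨V, hVdef⟩ : ∃ V : Subgroup Γ, V = τ.range := ⟨_, rfl⟩
  have hVmem : ∀ v, τ v ∈ V := fun v => by rw [hVdef]; exact ⟨v, rfl⟩
  have hVex : ∀ x ∈ V, ∃ v, τ v = x := fun x hx => by rw [hVdef] at hx; exact hx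
  have hVab : ∀ x ∈ V, ∀ y ∈ V, x * y = y * x := by
    intro x hx y hy
    obtain ⟨a, rfl⟩ := hVex x hx
    obtain ⟨b, rfl⟩ := hVex y hy
    rw [← map_mul, ← map_mul, mul_comm]
  have hVn : V.Normal := by
    refine ⟨fun x hx g => ?_⟩
    obtain ⟨a, rfl⟩ := hVex x hx
    obtain ⟨w, A, rfl⟩ := hdec g
    have h1 : τ w * ε A * τ a * (τ w * ε A)⁻¹ = τ w * (ε A * τ a * (ε A)⁻¹) * (τ w)⁻¹ := by group
    rw [h1, hc, ← map_inv, ← map_mul, ← map_mul]
    exact hVmem _
  have hVp : IsPGroup p V := by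
    rintro ⟨x, hx⟩
    obtain ⟨a, rfl⟩ := hVex x hx
    refine ⟨1, Subtype.ext ?_⟩
    rw [pow_one]
    change τ a ^ p = 1
    rw [← map_pow, vecP_exp, map_one]
  have hcV : centralizer (V : Set Γ) ≤ V := by
    intro x hx
    obtain ⟨v, A, rfl⟩ := hdec x
    have hA : A = 1 := by
      apply eq_one_of_act
      intro w
      apply hτ
      rw [← hc]
      have h1 := mem_centralizer_iff.mp hx (τ w) (hVmem w)
      have h2 : τ w * τ v = τ v * τ w := hVab _ (hVmem w) _ (hVmem v)
      have h3 : τ v * (τ w * ε A) = τ v * (ε A * τ w) := by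
        calc τ v * (τ w * ε A) = (τ v * τ w) * ε A := by group
          _ = (τ w * τ v) * ε A := by rw [h2]
          _ = τ w * (τ v * ε A) := by group
          _ = τ v * ε A * τ w := h1
          _ = τ v * (ε A * τ w) := by group
      have h4 := mul_left_cancel h3
      rw [← h4]
      group
    rw [hA, map_one, mul_one]
    exact hVmem v
  have hVcard : Nat.card V = p ^ 2 := by
    rw [hVdef, ← card_vecP]
    exact (Nat.card_congr (MonoidHom.ofInjective hτ).toEquiv).symm
  have hΓcard := card_model τ ε hτ hdec hin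
  have hTcard : Nat.card T = p ^ 3 := by
    rw [T.card_eq_multiplicity, hΓcard]
    exact CfsgLib.ClassGeo.pow_factorization_eq p 3 _ hpf.out not_dvd_sq_sub_one
  haveI := hVn
  have hVT : V ≤ (T : Subgroup Γ) := IsPGroup.le_sylow_of_normal hVp T
  obtain ⟨t, htT, htV⟩ : ∃ t ∈ (T : Subgroup Γ), t ∉ V := by
    by_contra hcon
    push Not at hcon
    have h1 : Nat.card T ≤ Nat.card V := Subgroup.card_le_of_le hcon
    rw [hTcard, hVcard] at h1
    have h2 : p ^ 2 < p ^ 3 := Nat.pow_lt_pow_right hp1 (by norm_num)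
    omega
  have ht1 : t ≠ 1 := fun h => htV (h ▸ one_mem V)
  haveI : Nontrivial T := ⟨⟨⟨t, htT⟩, 1, fun h => ht1 (congrArg Subtype.val h)⟩⟩
  haveI hZT := T.isPGroup'.center_nontrivial
  obtain ⟨⟨z₀, hz₀⟩, hz₀1⟩ := exists_ne (1 : Subgroup.center T)
  obtain ⟨z, hz⟩ : ∃ z : Γ, z = (z₀ : Γ) := ⟨_, rfl⟩
  have hzT : z ∈ (T : Subgroup Γ) := by rw [hz]; exact z₀.2
  have hzc : ∀ s ∈ (T : Subgroup Γ), s * z = z * s := by
    intro s hs
    have h1 := (Subgroup.mem_center_iff.mp hz₀) ⟨s, hs⟩
    rw [hz]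
    exact congrArg Subtype.val h1
  have hzV : z ∈ V := hcV (mem_centralizer_iff.mpr (fun v hv => hzc v (hVT hv)))
  have hz1 : z ≠ 1 := by
    intro h
    apply hz₀1
    apply Subtype.ext
    apply Subtype.ext
    rw [← hz, h]
    rfl
  -- the element of `V` not centralized by `t`
  obtain ⟨w, hwV, hwt⟩ : ∃ w ∈ V, w * t ≠ t * w := by
    by_contra hcon
    push Not at hcon
    exact htV (hcV (mem_centralizer_iff.mpr hcon))
  obtain ⟨vz, rfl⟩ := hVex z hzV
  obtain ⟨vw, rfl⟩ := hVex w hwV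
  have hvz1 : vz ≠ 1 := by
    rintro rfl
    exact hz1 (map_one τ)
  have hvw1 : vw ≠ 1 := by
    rintro rfl
    apply hwt
    rw [map_one]
    group
  obtain ⟨A, hA⟩ := exists_act hvz1 hvw1
  have hUT : inducedFunctor kInfLower (T : Subgroup Γ) = (T : Subgroup Γ) := by
    apply le_antisymm
    · exact (SecFun.ofChar kInfLower_char).le Γ T T.isPGroup'
    · exact induced_lower_of_class2 (class2_of_card_cube hTcard)
  rw [hUT]
  rintro ⟨T₁, hUT₁, hctl⟩
  have hVT₁ : V ≤ (T₁ : Subgroup Γ) := IsPGroup.le_sylow_of_normal hVp T₁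
  obtain ⟨-, h2⟩ := hctl (V : Set Γ) hVT₁
  obtain ⟨x, hx, hxa⟩ := h2 (ε A) (by
    rintro _ ⟨a, ha, rfl⟩
    exact hVT₁ (hVn.conj_mem a ha _))
  have h3 := hxa (τ vz) (hVmem vz)
  rw [hc, hA] at h3
  apply hwt
  rw [h3]
  have h4 : x⁻¹ * t * x ∈ (T : Subgroup Γ) := by
    have := (mem_normalizer_iff.mp hx (x⁻¹ * t * x)).mpr (by
      have e : x * (x⁻¹ * t * x) * x⁻¹ = t := by group
      rw [e]
      exact htT)
    exact this
  have h5 := hzc _ h4
  calc x * τ vz * x⁻¹ * t = x * (τ vz * (x⁻¹ * t * x)) * x⁻¹ := by group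
    _ = x * ((x⁻¹ * t * x) * τ vz) * x⁻¹ := by rw [h5]
    _ = t * (x * τ vz * x⁻¹) := by group

/-- No Sylow subgroup of `Qd(p)` has the lower K-infinity control. -/
theorem qd_no_control_lower {Γ : Type u} [Group Γ] (e : Γ ≃* qd p) (T : Sylow p Γ) :
    ¬ ControlsStrongFusion p (inducedFunctor kInfLower (T : Subgroup Γ)) := by
  classical
  haveI : Finite Γ := Finite.of_equiv _ e.symm.toEquiv
  let τ : VecP p →* Γ := e.symm.toMonoidHom.comp (qdTr.codRestrict (qd p) qdTr_mem)
  let ε : SLE (ZMod p) →* Γ := e.symm.toMonoidHom.comp (qdExt.codRestrict (qd p) qdExt_mem)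
  apply no_control_lower_model τ ε
  · intro a b hab
    have h1 := e.symm.injective hab
    have h2 : qdTr a = qdTr b := congrArg Subtype.val h1
    have h3 := congrArg (fun M : SL3 p => (M : Matrix (Fin 3) (Fin 3) (ZMod p))) h2
    simp only [qdTr_coe] at h3
    apply Multiplicative.toAdd.injective
    ext i
    fin_cases i
    · simpa using congrFun (congrFun h3 0) 2
    · simpa using congrFun (congrFun h3 1) 2
  · intro A v
    apply e.injective
    have h1 : ∀ x, e (e.symm x) = x := e.apply_symm_apply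
    simp only [map_mul, map_inv, τ, ε, MonoidHom.comp_apply, MulEquiv.coe_toMonoidHom, h1]
    apply Subtype.ext
    simp only [Subgroup.coe_mul, Subgroup.coe_inv, MonoidHom.codRestrict_apply]
    rw [qdExt_mul_tr]
    group
  · intro x
    obtain ⟨v, A, h⟩ := qd_decomp (e x).2
    refine ⟨v, A, ?_⟩
    apply e.injective
    have h1 : ∀ x, e (e.symm x) = x := e.apply_symm_apply
    simp only [map_mul, τ, ε, MonoidHom.comp_apply, MulEquiv.coe_toMonoidHom, h1]
    apply Subtype.ext
    simp only [Subgroup.coe_mul, MonoidHom.codRestrict_apply]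
    exact h
  · intro v A h
    have h1 := e.symm.injective h
    have h2 : qdTr v = qdExt A := congrArg Subtype.val h1
    have h3 := congrArg (fun M : SL3 p => (M : Matrix (Fin 3) (Fin 3) (ZMod p))) h2
    simp only [qdTr_coe, qdExt_coe] at h3
    apply Subtype.ext
    ext i j
    fin_cases i <;> fin_cases j
    · simpa using (congrFun (congrFun h3 0) 0).symm
    · simpa using (congrFun (congrFun h3 0) 1).symm
    · simpa using (congrFun (congrFun h3 1) 0).symm
    · simpa using (congrFun (congrFun h3 1) 1).symm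

end Model

end CfsgLib.KI
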