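import Cfsg.Agent.Lib.OOL.KI.KI7

set_option autoImplicit false
set_option linter.unusedSectionVars false
set_option linter.style.haveILetI false
set_option linter.unusedVariables false

open Pointwise
open scoped commutatorElement
open Subgroup Cfsg CfsgLib.CT1 CfsgLib.ConjFam CfsgLib.FCtl CfsgLib.TCt CfsgLib.OOL CfsgLib.SCl CfsgLib.Solv

namespace CfsgLib.KI

universe u v

section Coprime

variable {G : Type*} [Group G] [Finite G] {p : ℕ} [hpf : Fact p.Prime]

/-- A coprime element with a fixed commutator in a `p`-subgroup has trivial commutator. -/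
theorem coprime_fix_step {E : Subgroup G} (hE : IsPGroup p E) {k a : G} (hk : (orderOf k).Coprime p)
    (hc : ⁅a, k⁆ ∈ E) (hkE : ∀ e ∈ E, k * e = e * k) : ⁅a, k⁆ = 1 := by
  obtain ⟨c, hcd⟩ : ∃ c, c = ⁅a, k⁆ := ⟨_, rfl⟩
  rw [← hcd] at hc ⊢
  have hkc : k * c = c * k := hkE c hc
  have h1 : k * a⁻¹ * k⁻¹ = a⁻¹ * c := by
    rw [hcd]
    simp only [commutatorElement_def]
    group
  have hkcn : ∀ n : ℕ, k * c ^ n * k⁻¹ = c ^ n := by
    intro n
    have : Commute k (c ^ n) := (show Commute k c from hkc).pow_right n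
    rw [this.eq]
    group
  have h2 : ∀ n : ℕ, k ^ n * a⁻¹ * (k ^ n)⁻¹ = a⁻¹ * c ^ n := by
    intro n
    induction n with
    | zero => simp
    | succ n IH =>
      have e : k ^ (n + 1) * a⁻¹ * (k ^ (n + 1))⁻¹ = k * (k ^ n * a⁻¹ * (k ^ n)⁻¹) * k⁻¹ := by
        rw [pow_succ']
        group
      rw [e, IH]
      have e2 : k * (a⁻¹ * c ^ n) * k⁻¹ = (k * a⁻¹ * k⁻¹) * (k * c ^ n * k⁻¹) := by group
      rw [e2, h1, hkcn, pow_succ']
      group
  have h3 := h2 (orderOf k)
  rw [pow_orderOf_eq_one] at h3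
  simp only [one_mul, inv_one, mul_one] at h3
  have h4 : c ^ orderOf k = 1 := by
    have := mul_left_cancel (a := a⁻¹) (b := c ^ orderOf k) (c := 1) (by rw [← h3, mul_one])
    exact this
  obtain ⟨t, ht⟩ := hE ⟨c, hc⟩
  have h5 : c ^ p ^ t = 1 := by
    have := congrArg Subtype.val ht
    simpa using this
  have h6 : orderOf c ∣ orderOf k := orderOf_dvd_of_pow_eq_one h4
  have h7 : orderOf c ∣ p ^ t := orderOf_dvd_of_pow_eq_one h5
  have h8 : (orderOf k).Coprime (p ^ t) := Nat.Coprime.pow_right t hk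
  have h9 : orderOf c = 1 := Nat.Coprime.eq_one_of_dvd (Nat.Coprime.coprime_dvd_left h6 h8) h7
  exact orderOf_eq_one_iff.mp h9

/-- A coprime element stabilizing the tail of a chain centralizes it. -/
theorem coprime_chain_fix {A : ℕ → Subgroup G} (hA : NChain A) {e₀ K₀ : ℕ} (hK₀ : A K₀ = ⊥)
    (hp : IsPGroup p (A e₀)) {k : G} (hk : (orderOf k).Coprime p)
    (hstab : ∀ j, e₀ ≤ j → ∀ a ∈ A j, ⁅a, k⁆ ∈ A (j + 1)) :
    ∀ j, e₀ ≤ j → ∀ a ∈ A j, ⁅a, k⁆ = 1 := by
  have main : ∀ d j, K₀ ≤ j + d → e₀ ≤ j → ∀ a ∈ A j, ⁅a, k⁆ = 1 := by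
    intro d
    induction d with
    | zero =>
      intro j hj _ a ha
      have h1 : A j ≤ A K₀ := hA.anti (by omega)
      rw [hK₀] at h1
      have h2 : a = 1 := by simpa using h1 ha
      rw [h2, commutatorElement_one_left]
    | succ d IH =>
      intro j hj hj0 a ha
      have hE : IsPGroup p (A (j + 1)) := hp.to_le (hA.anti (by omega))
      refine coprime_fix_step hE hk (hstab j hj0 a ha) ?_
      intro e he
      have h1 := IH (j + 1) (by omega) (by omega) e he
      exact (commutatorElement_eq_one_iff_mul_comm.mp h1).symm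
  intro j hj a ha
  exact main K₀ j (by omega) hj a ha

/-- A power of each element has order prime to `p`. -/
theorem exists_coprime_pow (u : G) : ∃ a : ℕ, (orderOf (u ^ p ^ a)).Coprime p := by
  have hne : orderOf u ≠ 0 := (orderOf_pos u).ne'
  have hp1 : p ≠ 1 := hpf.out.ne_one
  obtain ⟨a, m, hm, he⟩ := Nat.exists_eq_pow_mul_and_not_dvd hne p hp1
  refine ⟨a, ?_⟩
  have h1 : p ^ a ∣ orderOf u := ⟨m, he⟩
  rw [orderOf_pow_of_dvd (pow_ne_zero _ hpf.out.ne_zero) h1]
  have h2 : orderOf u / p ^ a = m := by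
    rw [he]
    exact Nat.mul_div_cancel_left m (pow_pos hpf.out.pos a)
  rw [h2]
  exact ((Nat.Prime.coprime_iff_not_dvd hpf.out).mpr hm).symm

/-- An element in a `p`-subgroup of coprime order is trivial. -/
theorem eq_one_of_coprime_mem {P : Subgroup G} (hP : IsPGroup p P) {v : G} (hv : v ∈ P)
    (hc : (orderOf v).Coprime p) : v = 1 := by
  obtain ⟨t, ht⟩ := hP ⟨v, hv⟩
  have h5 : v ^ p ^ t = 1 := by
    have := congrArg Subtype.val ht
    simpa using this
  have h7 : orderOf v ∣ p ^ t := orderOf_dvd_of_pow_eq_one h5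
  have h9 : orderOf v = 1 := Nat.Coprime.eq_one_of_dvd (Nat.Coprime.pow_right t hc) h7
  exact orderOf_eq_one_iff.mp h9

/-- Elements stabilizing a chain from a self-centralizing situation are `p`-elements. -/
theorem stab_le_pCore {A : ℕ → Subgroup G} (hA : NChain A) {K₀ : ℕ} (hK₀ : A K₀ = ⊥)
    (hp : IsPGroup p (A 0)) (hC : centralizer ((pCore p G : Subgroup G) : Set G) ≤ pCore p G)
    (hCk : ∀ k : G, k ∈ centralizer ((A 0 : Subgroup G) : Set G) → (orderOf k).Coprime p →
      k ∈ centralizer ((pCore p G : Subgroup G) : Set G)) :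
    Pl ⊤ A hA.hn 1 ≤ pCore p G := by
  haveI hSt : (Pl ⊤ A hA.hn 1).Normal := Pl_normal ⊤ A hA.hn 1
  refine CfsgLib.PLocal.le_pCore_of_normal _ hSt ?_
  intro u
  obtain ⟨a, ha⟩ := exists_coprime_pow (p := p) (u : G)
  have hv : (u : G) ^ p ^ a ∈ Pl ⊤ A hA.hn 1 := pow_mem u.2 _
  have h1 := coprime_chain_fix (e₀ := 0) hA hK₀ hp ha (fun j _ x hx => by
    have := hv.2 j x hx
    exact this) 0 le_rfl
  have h2 : (u : G) ^ p ^ a ∈ centralizer ((A 0 : Subgroup G) : Set G) := by
    rw [mem_centralizer_iff]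
    intro x hx
    exact commutatorElement_eq_one_iff_mul_comm.mp (h1 x hx)
  have h3 := hC (hCk _ h2 ha)
  have h4 : (u : G) ^ p ^ a = 1 := eq_one_of_coprime_mem CfsgLib.PLocal.pCore_isPGroup h3 ha
  exact ⟨a, Subtype.ext (by simpa using h4)⟩

/-- Coprime elements centralizing a critical subgroup centralize the group. -/
theorem critical_hCk {T A : Subgroup G} (hT : IsPGroup p T) [hTn : T.Normal] (hAT : A ≤ T)
    (hTA : ⁅T, A⁆ ≤ A ⊓ centralizer (A : Set G)) (hTC : T ⊓ centralizer (A : Set G) ≤ A)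
    {k : G} (hkA : k ∈ centralizer (A : Set G)) (hk : (orderOf k).Coprime p) :
    k ∈ centralizer (T : Set G) := by
  have hzA : ⁅zpowers k, A⁆ = ⊥ := by
    rw [eq_bot_iff, Subgroup.commutator_le]
    intro z hz a ha
    have h1 : zpowers k ≤ centralizer (A : Set G) := by
      rw [zpowers_le]
      exact hkA
    have h2 := mem_centralizer_iff.mp (h1 hz) a ha
    rw [commutatorElement_def, ← h2]
    simp
  have h1 : ⁅⁅zpowers k, A⁆, T⁆ = ⊥ := by
    rw [hzA, Subgroup.commutator_bot_left]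
  have h2 : ⁅⁅A, T⁆, zpowers k⁆ = ⊥ := by
    rw [eq_bot_iff, Subgroup.commutator_le]
    intro x hx z hz
    have hx1 : x ∈ A := by
      have : ⁅A, T⁆ ≤ A ⊓ centralizer (A : Set G) := by
        rw [Subgroup.commutator_comm]
        exact hTA
      exact (mem_inf.mp (this hx)).1
    have hz2 : z ∈ centralizer (A : Set G) := (zpowers_le.mpr hkA) hz
    have h2 := mem_centralizer_iff.mp hz2 x hx1
    have : ⁅x, z⁆ = 1 := by
      rw [commutatorElement_def, h2]
      simp
    rw [this]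
    exact one_mem _
  have h3 : ⁅⁅T, zpowers k⁆, A⁆ = ⊥ := Subgroup.commutator_commutator_eq_bot_of_rotate h1 h2
  intro t ht
  have ht' : t ∈ T := ht
  have h4 : ⁅t, k⁆ ∈ ⁅T, zpowers k⁆ := Subgroup.commutator_mem_commutator ht' (mem_zpowers k)
  have h5 : ⁅t, k⁆ ∈ centralizer (A : Set G) := by
    rw [mem_centralizer_iff]
    intro a ha
    have h6 := Subgroup.commutator_mem_commutator h4 ha
    rw [h3, mem_bot] at h6
    exact (commutatorElement_eq_one_iff_mul_comm.mp h6).symm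
  have h6 : ⁅t, k⁆ ∈ T := by
    have e : ⁅t, k⁆ = t * (k * t⁻¹ * k⁻¹) := by
      simp only [commutatorElement_def]
      group
    rw [e]
    exact mul_mem ht' (hTn.conj_mem _ (inv_mem ht') k)
  have h7 : ⁅t, k⁆ ∈ A := hTC (mem_inf.mpr ⟨h6, h5⟩)
  have h8 : ⁅t, k⁆ = 1 := coprime_fix_step (hT.to_le hAT) hk h7 (fun e he => (mem_centralizer_iff.mp hkA e he).symm)
  exact commutatorElement_eq_one_iff_mul_comm.mp h8

end Coprime

section Clifford

variable {G : Type*} [Group G] [Finite G]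

/-- Minimal invariant subgroups between two normal subgroups. -/
def MinInv (X E H W : Subgroup G) : Prop :=
  E < W ∧ W ≤ X ∧ H ≤ normalizer (W : Set G) ∧
    ∀ W' : Subgroup G, E ≤ W' → W' ≤ W → H ≤ normalizer (W' : Set G) → W' = E ∨ W' = W

/-- The section is generated by minimal invariant subgroups. -/
def PCl (X E H : Subgroup G) : Prop := X ≤ sSup {W | MinInv X E H W}

theorem exists_minInv {X E H W₀ : Subgroup G} (h1 : E < W₀) (h2 : W₀ ≤ X) (h3 : H ≤ normalizer (W₀ : Set G)) :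
    ∃ W, MinInv X E H W ∧ W ≤ W₀ := by
  have hne : {W : Subgroup G | E < W ∧ W ≤ W₀ ∧ H ≤ normalizer (W : Set G)}.Nonempty := ⟨W₀, h1, le_rfl, h3⟩
  obtain ⟨W, hW⟩ := Set.Finite.exists_minimal (Set.toFinite _) hne
  obtain ⟨⟨hW1, hW2, hW3⟩, hmin⟩ := hW
  refine ⟨W, ⟨hW1, hW2.trans h2, hW3, ?_⟩, hW2⟩
  intro W' ha hb hc
  by_cases he : W' = E
  · exact Or.inl he
  · right
    apply le_antisymm hb
    exact hmin ⟨lt_of_le_of_ne ha (Ne.symm he), hb.trans hW2, hc⟩ hb

theorem norm_inf_le {A B : Subgroup G} {g : G} (h1 : g ∈ normalizer (A : Set G)) (h2 : g ∈ normalizer (B : Set G)) :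
    g ∈ normalizer ((A ⊓ B : Subgroup G) : Set G) := by
  rw [mem_normalizer_iff] at h1 h2 ⊢
  intro x
  constructor
  · intro hx
    exact mem_inf.mpr ⟨(h1 x).mp (mem_inf.mp hx).1, (h2 x).mp (mem_inf.mp hx).2⟩
  · intro hx
    exact mem_inf.mpr ⟨(h1 x).mpr (mem_inf.mp hx).1, (h2 x).mpr (mem_inf.mp hx).2⟩

theorem minInv_conj {X E H W : Subgroup G} [hX : X.Normal] [hE : E.Normal] {g : G}
    (hg : g ∈ normalizer (H : Set G)) (h : MinInv X E H W) : MinInv X E H (W.map (cj g)) := by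
  obtain ⟨h1, h2, h3, h4⟩ := h
  have hEm : E.map (cj g) = E := map_cj_eq_of_norm (by
    rw [normalizer_eq_top_iff.mpr hE]
    trivial)
  have hXm : X.map (cj g) = X := map_cj_eq_of_norm (by
    rw [normalizer_eq_top_iff.mpr hX]
    trivial)
  have hHm : H.map (cj g) = H := map_cj_eq_of_norm hg
  have hinv : ∀ R : Subgroup G, (R.map (cj g)).map (cj g⁻¹) = R := by
    intro R
    rw [← map_cj_mul]
    simpa using map_cj_one R
  have hinv2 : ∀ R : Subgroup G, (R.map (cj g⁻¹)).map (cj g) = R := by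
    intro R
    rw [← map_cj_mul]
    simpa using map_cj_one R
  have hHm' : H.map (cj g⁻¹) = H := by
    conv_lhs => rw [← hHm]
    exact hinv H
  have hEm' : E.map (cj g⁻¹) = E := by
    conv_lhs => rw [← hEm]
    exact hinv E
  refine ⟨?_, ?_, ?_, ?_⟩
  · have : E.map (cj g) < W.map (cj g) :=
      lt_of_le_of_ne (map_mono h1.le) (fun he => h1.ne (Subgroup.map_injective (MulAut.conj g).injective he))
    rwa [hEm] at this
  · have := map_mono (f := cj g) h2
    rwa [hXm] at this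
  · have := map_cj_le_norm h3 g
    rwa [hHm] at this
  · intro W' h5 h6 h7
    have h8 : W'.map (cj g⁻¹) ≤ W := by
      have := map_mono (f := cj g⁻¹) h6
      rwa [hinv] at this
    have h9 : E ≤ W'.map (cj g⁻¹) := by
      have := map_mono (f := cj g⁻¹) h5
      rwa [hEm'] at this
    have h10 : H ≤ normalizer ((W'.map (cj g⁻¹) : Subgroup G) : Set G) := by
      have := map_cj_le_norm h7 g⁻¹
      rwa [hHm'] at this
    rcases h4 _ h9 h8 h10 with h11 | h11
    · left
      have := congrArg (fun R => R.map (cj g)) h11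
      rwa [hinv2, hEm] at this
    · right
      have := congrArg (fun R => R.map (cj g)) h11
      rwa [hinv2] at this

theorem clifford_step {X E H H₁ : Subgroup G} [hX : X.Normal] [hE : E.Normal] (hHH₁ : H ≤ H₁)
    (hH₁ : H₁ ≤ normalizer (H : Set G)) (P : PCl X E H₁) : PCl X E H := by
  refine le_trans P (sSup_le ?_)
  intro W₁ hW₁
  obtain ⟨h1, h2, h3, h4⟩ := id hW₁
  obtain ⟨W'', hW'', hle⟩ := exists_minInv (X := X) (H := H) h1 h2 (hHH₁.trans h3)
  obtain ⟨S', hS'⟩ : ∃ S', S' = sSup {W | MinInv X E H W} := ⟨_, rfl⟩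
  have hW''S : W'' ≤ S' := by
    rw [hS']
    exact le_sSup hW''
  have hnorm : H₁ ≤ normalizer (S' : Set G) := by
    intro h hh
    apply norm_of_conj_le
    have hmap : S'.map (cj h) ≤ S' := by
      rw [Subgroup.map_le_iff_le_comap, hS']
      refine sSup_le fun W hW => ?_
      rw [← Subgroup.map_le_iff_le_comap]
      exact le_sSup (minInv_conj (hH₁ hh) hW)
    intro z hz
    exact hmap ⟨z, hz, rfl⟩
  have hW' : (W₁ ⊓ S') = E ∨ (W₁ ⊓ S') = W₁ := by
    refine h4 _ (le_inf (hW''.1.le.trans hle) (hW''.1.le.trans hW''S)) inf_le_left ?_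
    intro h hh
    exact norm_inf_le (h3 hh) (hnorm hh)
  rcases hW' with h5 | h5
  · exfalso
    have h6 : W'' ≤ W₁ ⊓ S' := le_inf hle hW''S
    rw [h5] at h6
    exact absurd hW''.1 (not_lt_of_ge h6)
  · rw [← hS']
    rw [← h5]
    exact inf_le_right

theorem pcl_top {X E : Subgroup G} (h : IsChiefFactor X E) : PCl X E ⊤ := by
  obtain ⟨hlt, hXn, hEn, hmin⟩ := h
  refine le_sSup ⟨hlt, le_rfl, ?_, ?_⟩
  · rw [normalizer_eq_top_iff.mpr hXn]
  · intro W' h1 h2 h3
    have h4 : W'.Normal := normalizer_eq_top_iff.mp (top_le_iff.mp h3)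
    exact hmin W' h4 h1 h2

/-- The step in the subnormal chain. -/
theorem exists_norm_step {p : ℕ} [hpf : Fact p.Prime] {N K H : Subgroup G} [hKn : K.Normal] (hKN : K ≤ N)
    (hp : ∀ n ∈ N, ∃ a : ℕ, n ^ p ^ a ∈ K) (hKH : K ≤ H) (hHN : H < N) :
    ∃ n ∈ N, n ∉ H ∧ n ∈ normalizer (H : Set G) := by
  have hker : (QuotientGroup.mk' K).ker = K := QuotientGroup.ker_mk' K
  have hNp : IsPGroup p (N.map (QuotientGroup.mk' K)) := by
    rintro ⟨q, n, hn, rfl⟩
    obtain ⟨a, ha⟩ := hp n hn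
    refine ⟨a, Subtype.ext ?_⟩
    show (QuotientGroup.mk' K n) ^ p ^ a = 1
    rw [← map_pow, ← MonoidHom.mem_ker, hker]
    exact ha
  have hHK : ∀ x, QuotientGroup.mk' K x ∈ H.map (QuotientGroup.mk' K) → x ∈ H := by
    rintro x ⟨h, hh, he⟩
    have h1 : h⁻¹ * x ∈ K := by
      rw [← hker, MonoidHom.mem_ker, map_mul, map_inv, he]
      simp
    have e : x = h * (h⁻¹ * x) := by group
    rw [e]
    exact mul_mem hh (hKH h1)
  have hlt : H.map (QuotientGroup.mk' K) < N.map (QuotientGroup.mk' K) := by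
    refine lt_of_le_of_ne (map_mono hHN.le) ?_
    intro he
    apply not_le_of_gt hHN
    intro n hn
    apply hHK
    rw [he]
    exact ⟨n, hn, rfl⟩
  have h1 := lt_inf_normalizer_of_pgroup hNp hlt
  obtain ⟨q, hq, hqH⟩ := Set.exists_of_ssubset h1
  obtain ⟨hq1, hq2⟩ := mem_inf.mp hq
  obtain ⟨n, hn, rfl⟩ := hq1
  refine ⟨n, hn, fun hnH => hqH ⟨n, hnH, rfl⟩, ?_⟩
  rw [mem_normalizer_iff] at hq2 ⊢
  intro h
  constructor
  · intro hh
    apply hHK
    rw [map_mul, map_mul, map_inv]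
    exact (hq2 _).mp ⟨h, hh, rfl⟩
  · intro hh
    apply hHK
    refine (hq2 _).mpr ?_
    have : QuotientGroup.mk' K n * QuotientGroup.mk' K h * (QuotientGroup.mk' K n)⁻¹ = QuotientGroup.mk' K (n * h * n⁻¹) := by
      rw [map_mul, map_mul, map_inv]
    rw [this]
    exact ⟨_, hh, rfl⟩

/-- Semisimplicity on subgroups between a normal subgroup and a normal `p`-overgroup. -/
theorem pcl_of_chain {p : ℕ} [hpf : Fact p.Prime] {X E N K : Subgroup G} [hKn : K.Normal] [hNn : N.Normal]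
    (hXE : IsChiefFactor X E) (hKN : K ≤ N) (hp : ∀ n ∈ N, ∃ a : ℕ, n ^ p ^ a ∈ K)
    (H : Subgroup G) (hKH : K ≤ H) (hHN : H ≤ N) : PCl X E H := by
  haveI hX : X.Normal := hXE.2.1
  haveI hE : E.Normal := hXE.2.2.1
  classical
  induction H using WellFoundedGT.induction with
  | ind H IH =>
    by_cases hH : H = N
    · subst hH
      refine clifford_step le_top ?_ (pcl_top hXE)
      rw [normalizer_eq_top_iff.mpr hNn]
    · have hlt : H < N := lt_of_le_of_ne hHN hH
      obtain ⟨n, hn, hnH, hnN⟩ := exists_norm_step hKN hp hKH hlt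
      have h1 : H ≤ N ⊓ normalizer (H : Set G) := le_inf hHN le_normalizer
      have h2 : H < N ⊓ normalizer (H : Set G) := by
        refine lt_of_le_of_ne h1 ?_
        intro he
        apply hnH
        rw [he]
        exact mem_inf.mpr ⟨hn, hnN⟩
      have h3 := IH _ h2 (hKH.trans h1) inf_le_left
      exact clifford_step h1 inf_le_right h3

end Clifford

end CfsgLib.KI
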