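import Cfsg.Agent.Lib.OOL.KI.KI8

set_option autoImplicit false
set_option linter.unusedSectionVars false
set_option linter.style.haveILetI false
set_option linter.unusedVariables false

open Pointwise
open scoped commutatorElement
open Subgroup Cfsg CfsgLib.CT1 CfsgLib.ConjFam CfsgLib.FCtl CfsgLib.TCt CfsgLib.OOL CfsgLib.SCl CfsgLib.Solv

namespace CfsgLib.KI

universe u v

section Level

variable {G : Type*} [Group G] [Finite G]

/-- Elements with commutators in a subgroup normalized by the ambient one. -/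
def relSub (X D B : Subgroup G) (hD : ∀ x ∈ X, ∀ d ∈ D, x * d * x⁻¹ ∈ D) : Subgroup G where
  carrier := {x | x ∈ X ∧ ∀ z ∈ B, ⁅x, z⁆ ∈ D}
  mul_mem' := fun {a b} ha hb => ⟨mul_mem ha.1 hb.1, fun z hz => by
    have e : ⁅a * b, z⁆ = a * ⁅b, z⁆ * a⁻¹ * ⁅a, z⁆ := by
      simp only [commutatorElement_def]
      group
    rw [e]
    exact mul_mem (hD a ha.1 _ (hb.2 z hz)) (ha.2 z hz)⟩
  one_mem' := ⟨one_mem _, fun z _ => by
    rw [commutatorElement_one_left]
    exact one_mem _⟩
  inv_mem' := fun {a} ha => ⟨inv_mem ha.1, fun z hz => by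
    have e : ⁅a⁻¹, z⁆ = a⁻¹ * ⁅a, z⁆⁻¹ * a⁻¹⁻¹ := by
      simp only [commutatorElement_def]
      group
    rw [e]
    exact hD _ (inv_mem ha.1) _ (inv_mem (ha.2 z hz))⟩

theorem mem_relSub {X D B : Subgroup G} {hD : ∀ x ∈ X, ∀ d ∈ D, x * d * x⁻¹ ∈ D} {x : G} :
    x ∈ relSub X D B hD ↔ x ∈ X ∧ ∀ z ∈ B, ⁅x, z⁆ ∈ D := Iff.rfl

theorem comm_mem_normal {E : Subgroup G} [hE : E.Normal] {x : G} (hx : x ∈ E) (z : G) : ⁅x, z⁆ ∈ E := by
  have e : ⁅x, z⁆ = x * (z * x⁻¹ * z⁻¹) := by
    simp only [commutatorElement_def]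
    group
  rw [e]
  exact mul_mem hx (hE.conj_mem _ (inv_mem hx) z)

/-- The elements acting trivially to `E`. -/
def C2 (X E B : Subgroup G) [hE : E.Normal] : Subgroup G :=
  relSub X E B (fun x _ d hd => hE.conj_mem d hd x)

theorem le_C2 {X E B : Subgroup G} [hE : E.Normal] (hEX : E ≤ X) : E ≤ C2 X E B :=
  fun e he => ⟨hEX he, fun z _ => comm_mem_normal he z⟩

theorem C2_conj {X E B : Subgroup G} [hE : E.Normal] (hEX : E ≤ X) (hXX : ⁅X, X⁆ ≤ E) :
    ∀ x ∈ X, ∀ d ∈ C2 X E B, x * d * x⁻¹ ∈ C2 X E B := by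
  intro x hx d hd
  have e : x * d * x⁻¹ = ⁅x, d⁆ * d := by
    simp only [commutatorElement_def]
    group
  rw [e]
  exact mul_mem (le_C2 hEX (hXX (Subgroup.commutator_mem_commutator hx hd.1))) hd

/-- The elements acting quadratically to `E`. -/
def C3 (X E B : Subgroup G) [hE : E.Normal] (hEX : E ≤ X) (hXX : ⁅X, X⁆ ≤ E) : Subgroup G :=
  relSub X (C2 X E B) B (C2_conj hEX hXX)

/-- A central element of `B` inside a class-two group gives fixed commutators. -/
theorem comm_fixed {A B : Subgroup G} [hAn : A.Normal] {w y b : G} (hwA : w ∈ A) (hyA : y ∈ A)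
    (hA2 : ∀ a ∈ A, ∀ a' ∈ A, ⁅a, a'⁆ ∈ centralizer (A : Set G))
    (hwC : w ∈ centralizer (B : Set G)) (hb : b ∈ B) (hyB : y ∈ normalizer (B : Set G)) :
    b * ⁅w, y⁆ * b⁻¹ = ⁅w, y⁆ := by
  obtain ⟨c, hc⟩ : ∃ c, c = b * y * b⁻¹ * y⁻¹ := ⟨_, rfl⟩
  have hcB : c ∈ B := by
    have e : c = b * (y * b⁻¹ * y⁻¹) := by
      rw [hc]
      group
    rw [e]
    exact mul_mem hb ((mem_normalizer_iff.mp hyB _).mp (inv_mem hb))
  have hcA : c ∈ A := by
    rw [hc]
    exact mul_mem (hAn.conj_mem y hyA b) (inv_mem hyA)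
  have h1 : b * w * b⁻¹ = w := by
    have := mem_centralizer_iff.mp hwC b hb
    rw [this]
    group
  have h2 : c * w * c⁻¹ = w := by
    have := mem_centralizer_iff.mp hwC c hcB
    rw [this]
    group
  have h3 : c * ⁅w, y⁆ * c⁻¹ = ⁅w, y⁆ := by
    have := mem_centralizer_iff.mp (hA2 w hwA y hyA) c hcA
    rw [this]
    group
  have e : b * ⁅w, y⁆ * b⁻¹ = (b * w * b⁻¹) * (b * y * b⁻¹) * (b * w * b⁻¹)⁻¹ * (b * y * b⁻¹)⁻¹ := by
    simp only [commutatorElement_def]
    group
  rw [e, h1]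
  have hby : b * y * b⁻¹ = c * y := by
    rw [hc]
    group
  rw [hby]
  have e2 : w * (c * y) * w⁻¹ * (c * y)⁻¹ = (w * c * w⁻¹ * c⁻¹) * (c * ⁅w, y⁆ * c⁻¹) := by
    simp only [commutatorElement_def]
    group
  rw [e2, h3]
  have h4 : w * c * w⁻¹ * c⁻¹ = 1 := by
    have h5 : w * c = c * w := (mem_centralizer_iff.mp hwC c hcB).symm
    rw [h5]
    group
  rw [h4, one_mul]

/-- The conclusion at a single level of the chain. -/
theorem level_step {A B Q X E K : Subgroup G} [hAn : A.Normal] (hXE : IsChiefFactor X E)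
    (hXA : X ≤ A) (hAQ : A ≤ Q) (hA2 : A ∈ classTwoSubgroups G) (hZE : A ⊓ centralizer (A : Set G) ≤ E)
    (hB : B ∈ kLowerStarFamily Q) (hKC : K ≤ centralizer (E : Set G))
    (hZB : ⁅B ⊓ centralizer (B : Set G), A⁆ ≤ A ⊓ centralizer (A : Set G))
    (hP : PCl X E (K ⊔ B)) : ⁅⁅X, B⁆, B⁆ ≤ E := by
  haveI hXn : X.Normal := hXE.2.1
  haveI hEn : E.Normal := hXE.2.2.1
  have hEX : E ≤ X := hXE.1.le
  have hcomm : ∀ a ∈ A, ∀ a' ∈ A, ⁅a, a'⁆ ∈ A ⊓ centralizer (A : Set G) := by
    intro a ha a' ha'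
    refine mem_inf.mpr ⟨comm_mem_normal ha a', hA2 (Subgroup.commutator_mem_commutator ha ha')⟩
  have hcommC : ∀ a ∈ A, ∀ a' ∈ A, ⁅a, a'⁆ ∈ centralizer (A : Set G) := fun a ha a' ha' => (mem_inf.mp (hcomm a ha a' ha')).2
  have hXX : ⁅X, X⁆ ≤ E := by
    rw [Subgroup.commutator_le]
    intro x hx y hy
    exact hZE (hcomm x (hXA hx) y (hXA hy))
  -- the subgroup with commutators in the fixed points
  obtain ⟨D, hDd⟩ : ∃ D, D = centralizer (B : Set G) ⊓ (A ⊓ centralizer (A : Set G)) := ⟨_, rfl⟩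
  have hDc : ∀ x ∈ X, ∀ d ∈ D, x * d * x⁻¹ ∈ D := by
    intro x hx d hd
    have h1 : x * d * x⁻¹ = d := by
      have hd' : d ∈ centralizer (A : Set G) := by
        rw [hDd] at hd
        exact (mem_inf.mp (mem_inf.mp hd).2).2
      have := mem_centralizer_iff.mp hd' x (hXA hx)
      rw [this]
      group
    rw [h1]
    exact hd
  obtain ⟨U, hUd⟩ : ∃ U, U = relSub X D X hDc := ⟨_, rfl⟩
  have hUX : U ≤ X := by
    rw [hUd]
    exact fun x hx => hx.1
  have hUA : U ≤ A := hUX.trans hXA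
  have hUmem : ∀ {x y : G}, x ∈ U → y ∈ X → ⁅x, y⁆ ∈ centralizer (B : Set G) := by
    intro x y hx hy
    rw [hUd] at hx
    have := hx.2 y hy
    rw [hDd] at this
    exact (mem_inf.mp this).1
  have hmemU : ∀ {x : G}, x ∈ X → (∀ y ∈ X, ⁅x, y⁆ ∈ centralizer (B : Set G)) → x ∈ U := by
    intro x hx h
    rw [hUd]
    refine ⟨hx, fun y hy => ?_⟩
    rw [hDd]
    exact mem_inf.mpr ⟨h y hy, hcomm x (hXA hx) y (hXA hy)⟩
  -- invariance of `U`
  have hinv : ∀ g : G, (∀ u ∈ U, ∀ y ∈ X, g * ⁅u, y⁆ * g⁻¹ = ⁅u, y⁆) → g ∈ normalizer (U : Set G) := by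
    intro g hg
    apply norm_of_conj_le
    intro u hu
    refine hmemU (hXn.conj_mem u (hUX hu) g) fun y hy => ?_
    have e : ⁅g * u * g⁻¹, y⁆ = g * ⁅u, g⁻¹ * y * g⁻¹⁻¹⁆ * g⁻¹ := by
      simp only [commutatorElement_def]
      group
    have hy' : g⁻¹ * y * g⁻¹⁻¹ ∈ X := hXn.conj_mem y hy g⁻¹
    rw [e, hg u hu _ hy']
    exact hUmem hu hy'
  have hUB : B ≤ normalizer (U : Set G) := by
    intro b hb
    refine hinv b fun u hu y hy => ?_
    have := mem_centralizer_iff.mp (hUmem hu hy) b hb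
    rw [this]
    group
  have hUK : K ≤ normalizer (U : Set G) := by
    intro k hk
    refine hinv k fun u hu y hy => ?_
    have h1 : ⁅u, y⁆ ∈ E := hZE (hcomm u (hUA hu) y (hXA hy))
    have := mem_centralizer_iff.mp (hKC hk) _ h1
    rw [← this]
    group
  have hUcomm : ⁅B, U⁆ ≤ B ⊓ centralizer (B : Set G) := by
    refine hB.2.2 U ?_ (hUA.trans hAQ) hUB ?_ ?_
    · show ⁅U, U⁆ ≤ _
      rw [Subgroup.commutator_le]
      intro x hx y hy
      exact Subgroup.centralizer_le (by exact_mod_cast hUA) (hcommC x (hUA hx) y (hUA hy))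
    · rw [Subgroup.commutator_comm, Subgroup.commutator_eq_bot_iff_le_centralizer, Subgroup.commutator_le]
      intro x hx y hy
      exact hUmem hx (hUX hy)
    · rw [eq_bot_iff]
      have h1 : ⁅B ⊓ centralizer (B : Set G), U⁆ ≤ A ⊓ centralizer (A : Set G) :=
        (Subgroup.commutator_mono le_rfl hUA).trans hZB
      refine (Subgroup.commutator_mono h1 le_rfl).trans ?_
      rw [center_comm_eq_bot A hUA]
  have hquad : ∀ u ∈ U, ∀ z ∈ B, ∀ z' ∈ B, ⁅⁅u, z⁆, z'⁆ = 1 := by
    intro u hu z hz z' hz'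
    have h1 : ⁅u, z⁆ ∈ B ⊓ centralizer (B : Set G) := by
      apply hUcomm
      rw [Subgroup.commutator_comm]
      exact Subgroup.commutator_mem_commutator hu hz
    have h2 := mem_centralizer_iff.mp (mem_inf.mp h1).2 z' hz'
    exact commutatorElement_eq_one_iff_mul_comm.mpr h2.symm
  -- the quadratic subgroups
  obtain ⟨C, hCd⟩ : ∃ C, C = C3 X E B hEX hXX := ⟨_, rfl⟩
  have hCmem : ∀ {x : G}, x ∈ C → ∀ z ∈ B, ∀ z' ∈ B, ⁅⁅x, z⁆, z'⁆ ∈ E := by
    intro x hx z hz z' hz'
    rw [hCd] at hx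
    exact (hx.2 z hz).2 z' hz'
  have hmemC : ∀ {x : G}, x ∈ X → (∀ z ∈ B, ∀ z' ∈ B, ⁅⁅x, z⁆, z'⁆ ∈ E) → x ∈ C := by
    intro x hx h
    rw [hCd]
    exact ⟨hx, fun z hz => ⟨comm_mem_normal hx z, fun z' hz' => h z hz z' hz'⟩⟩
  have hUC : U ≤ C := by
    intro u hu
    refine hmemC (hUX hu) fun z hz z' hz' => ?_
    rw [hquad u hu z hz z' hz']
    exact one_mem _
  have hEC : E ≤ C := by
    intro e he
    refine hmemC (hEX he) fun z hz z' hz' => ?_
    exact comm_mem_normal (comm_mem_normal he z) z'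
  have hXB : ∀ x ∈ X, ∀ z ∈ B, ⁅x, z⁆ ∈ B := by
    intro x hx z hz
    have e : ⁅x, z⁆ = (x * z * x⁻¹) * z⁻¹ := by
      simp only [commutatorElement_def]
    rw [e]
    refine mul_mem ?_ (inv_mem hz)
    exact (mem_normalizer_iff.mp (hB.2.1 (hAQ (hXA hx))) z).mp hz
  have hkey : ∀ x ∈ X, ∀ z ∈ B, ∀ z' ∈ B, ⁅⁅x, z⁆, z'⁆ ∈ U := by
    intro x hx z hz z' hz'
    obtain ⟨w, hw⟩ : ∃ w, w = ⁅⁅x, z⁆, z'⁆ := ⟨_, rfl⟩
    rw [← hw]
    have hwX : w ∈ X := by
      rw [hw]
      exact comm_mem_normal (comm_mem_normal hx z) z'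
    have hwC : w ∈ centralizer (B : Set G) := by
      rw [hw]
      exact hB.1 (Subgroup.commutator_mem_commutator (hXB x hx z hz) hz')
    refine hmemU hwX fun y hy => ?_
    rw [mem_centralizer_iff]
    intro b hb
    exact mul_inv_eq_iff_eq_mul.mp (comm_fixed (hXA hwX) (hXA hy) hcommC hwC hb (hB.2.1 (hAQ (hXA hy))))
  have hXC : X ≤ C := by
    refine hP.trans (sSup_le ?_)
    intro W hW
    obtain ⟨h1, h2, h3, h4⟩ := hW
    have h5 : (W ⊓ (U ⊔ E)) = E ∨ (W ⊓ (U ⊔ E)) = W := by
      refine h4 _ (le_inf h1.le le_sup_right) inf_le_left ?_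
      intro g hg
      refine norm_inf_le (h3 hg) (norm_sup (?_) ?_)
      · exact (sup_le hUK hUB) hg
      · rw [normalizer_eq_top_iff.mpr hEn]
        trivial
    rcases h5 with h5 | h5
    · intro x hx
      refine hmemC (h2 hx) fun z hz z' hz' => ?_
      have hwU := hkey x (h2 hx) z hz z' hz'
      rw [← h5]
      refine mem_inf.mpr ⟨?_, (le_sup_left : U ≤ U ⊔ E) hwU⟩
      have hBW : B ≤ normalizer (W : Set G) := le_sup_right.trans h3
      have hWc : ∀ y ∈ W, ∀ z ∈ B, ⁅y, z⁆ ∈ W := by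
        intro y hy z hz
        have e : ⁅y, z⁆ = y * (z * y⁻¹ * z⁻¹) := by
          simp only [commutatorElement_def]
          group
        rw [e]
        exact mul_mem hy ((mem_normalizer_iff.mp (hBW hz) _).mp (inv_mem hy))
      exact hWc _ (hWc x hx z hz) z' hz'
    · rw [← h5]
      exact inf_le_right.trans (sup_le hUC hEC)
  rw [Subgroup.commutator_le]
  intro c hc z' hz'
  have hcC : ⁅X, B⁆ ≤ C2 X E B := by
    rw [Subgroup.commutator_le]
    intro x hx z hz
    have : x ∈ C := hXC hx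
    rw [hCd] at this
    exact this.2 z hz
  exact (hcC hc).2 z' hz'

end Level

section Main

variable {G : Type*} [Group G] [Finite G] {p : ℕ} [hpf : Fact p.Prime]

/-- Stabilization of the chain by the members of the lower family. -/
theorem lower_stab {A : Subgroup G} [hAn : A.Normal] {Ac : ℕ → Subgroup G} (hc : NChain Ac) {m k : ℕ}
    (hA0 : Ac 0 = A) (hAm : Ac m = A ⊓ centralizer (A : Set G)) (hAk : Ac k = ⊥) (hAp : IsPGroup p A)
    (hA2 : A ∈ classTwoSubgroups G) {Q B : Subgroup G} (hAQ : A ≤ Q) (hB : B ∈ kLowerStarFamily Q)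
    (hZB : ⁅B ⊓ centralizer (B : Set G), A⁆ ≤ A ⊓ centralizer (A : Set G))
    (NQ : ∀ g ∈ B, ∀ e, ⁅⁅Ac e, zpowers g⁆, zpowers g⁆ ≤ Ac (e + 1) → ∀ x ∈ Ac e, ⁅x, g⁆ ∈ Ac (e + 1)) :
    ∀ e, ∀ x ∈ Ac e, ∀ g ∈ B, ⁅x, g⁆ ∈ Ac (e + 1) := by
  have hBN : B ≤ normalizer (A : Set G) := by
    rw [normalizer_eq_top_iff.mpr hAn]
    exact le_top
  have main : ∀ d e, k ≤ e + d → ∀ j, e ≤ j → ∀ x ∈ Ac j, ∀ g ∈ B, ⁅x, g⁆ ∈ Ac (j + 1) := by
    intro d
    induction d with
    | zero =>
      intro e he j hj x hx g _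
      have h1 : Ac j ≤ Ac k := hc.anti (by omega)
      rw [hAk] at h1
      have h2 : x = 1 := by simpa using h1 hx
      rw [h2, commutatorElement_one_left]
      exact one_mem _
    | succ d IH =>
      intro e he j hj
      rcases Nat.lt_or_ge e j with hlt | hge
      · exact IH (e + 1) (by omega) j (by omega)
      · have hje : j = e := le_antisymm hge hj
        subst hje
        intro x hx g hg
        rcases Nat.lt_or_ge j m with hjm | hjm
        · -- a level above the centre
          have hEZ : A ⊓ centralizer (A : Set G) ≤ Ac (j + 1) := by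
            rw [← hAm]
            exact hc.anti (by omega)
          rcases hc.hc j with heq | hch
          · rw [heq]
            haveI := hc.hn j
            exact comm_mem_normal hx g
          · haveI hNn : (normalClosure (B : Set G)).Normal := inferInstance
            obtain ⟨N, hNd⟩ : ∃ N, N = normalClosure (B : Set G) := ⟨_, rfl⟩
            haveI hNn' : N.Normal := by
              rw [hNd]
              exact hNn
            have hBN' : B ≤ N := by
              rw [hNd]
              exact Subgroup.subset_normalClosure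
            obtain ⟨Sc, hSc⟩ : ∃ Sc : Set G, Sc = {n | n ∈ N ∧ (orderOf n).Coprime p} := ⟨_, rfl⟩
            obtain ⟨K, hKd⟩ : ∃ K, K = normalClosure Sc := ⟨_, rfl⟩
            haveI hKn : K.Normal := by
              rw [hKd]
              infer_instance
            have hKN : K ≤ N := by
              rw [hKd]
              apply Subgroup.normalClosure_le_normal
              rw [hSc]
              exact fun n hn => hn.1
            -- the tail stabilizer
            have hstabB := IH (j + 1) (by omega)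
            have hshift : ∀ i, (Ac (j + 1 + i)).Normal := fun i => hc.hn _
            haveI hPn : (Pl ⊤ (fun i => Ac (j + 1 + i)) hshift 1).Normal := Pl_normal ⊤ _ hshift 1
            have hNP : N ≤ Pl ⊤ (fun i => Ac (j + 1 + i)) hshift 1 := by
              rw [hNd]
              apply Subgroup.normalClosure_le_normal
              intro b hb
              refine ⟨trivial, fun e a ha => ?_⟩
              exact hstabB (j + 1 + e) (by omega) a ha b hb
            have hp' : ∀ n ∈ N, ∃ a : ℕ, n ^ p ^ a ∈ K := by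
              intro n hn
              obtain ⟨a, ha⟩ := exists_coprime_pow (p := p) n
              refine ⟨a, ?_⟩
              rw [hKd]
              apply Subgroup.subset_normalClosure
              rw [hSc]
              exact ⟨pow_mem hn _, ha⟩
            haveI hEn : (Ac (j + 1)).Normal := hc.hn _
            have hKC : K ≤ centralizer ((Ac (j + 1) : Subgroup G) : Set G) := by
              rw [hKd]
              apply Subgroup.normalClosure_le_normal
              intro n hn
              rw [hSc] at hn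
              have hn' : n ∈ N := hn.1
              have hfix := coprime_chain_fix (e₀ := j + 1) hc hAk
                (hAp.to_le ((hc.anti (Nat.zero_le _)).trans hA0.le)) hn.2 (fun i hi a ha => by
                  have h1 := (hNP hn').2 (i - (j + 1)) a (by
                    have : j + 1 + (i - (j + 1)) = i := by omega
                    show a ∈ Ac (j + 1 + (i - (j + 1)))
                    rw [this]
                    exact ha)
                  have h2 : j + 1 + (i - (j + 1)) + 1 = i + 1 := by omega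
                  show ⁅a, n⁆ ∈ Ac (i + 1)
                  rw [← h2]
                  exact h1) (j + 1) le_rfl
              rw [SetLike.mem_coe, mem_centralizer_iff]
              intro a ha
              exact commutatorElement_eq_one_iff_mul_comm.mp (hfix a ha)
            have hPC : PCl (Ac j) (Ac (j + 1)) (K ⊔ B) :=
              pcl_of_chain (p := p) (N := N) (K := K) hch hKN hp' _ le_sup_left (sup_le hKN hBN')
            have h5 := level_step (A := A) hch ((hc.anti (Nat.zero_le _)).trans hA0.le) hAQ hA2 hEZ hB hKC hZB hPC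
            refine NQ g hg j ?_ x hx
            have hz : zpowers g ≤ B := zp_le hg
            exact (Subgroup.commutator_mono (Subgroup.commutator_mono le_rfl hz) hz).trans h5
        · -- below the centre
          refine NQ g hg j ?_ x hx
          have h1 : Ac j ≤ A ⊓ centralizer (A : Set G) := by
            rw [← hAm]
            exact hc.anti hjm
          have h2 := (lower_elem hBN hAQ hB hg).2
          have h3 : ⁅⁅Ac j, zpowers g⁆, zpowers g⁆ ≤ ⁅⁅A ⊓ centralizer (A : Set G), zpowers g⁆, zpowers g⁆ :=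
            Subgroup.commutator_mono (Subgroup.commutator_mono h1 le_rfl) le_rfl
          rw [h2] at h3
          exact h3.trans bot_le
  intro e
  exact main k e (by omega) e le_rfl

/-- The clause on chief factors. -/
theorem ki_chief (S : Sylow p G) (A : Subgroup G) [hAn : A.Normal] (hAT : A ≤ pCore p G)
    (hA2 : A ∈ classTwoSubgroups G) (hTA : ⁅pCore p G, A⁆ ≤ A ⊓ centralizer (A : Set G))
    (hTC : pCore p G ⊓ centralizer (A : Set G) ≤ A)
    (hC : centralizer ((pCore p G : Subgroup G) : Set G) ≤ pCore p G)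
    (hK : ¬ (inducedFunctor kInfLower (S : Subgroup G)).Normal ∨ ¬ (inducedFunctor kInfUpper (S : Subgroup G)).Normal) :
    ∃ g ∈ (S : Subgroup G), g ∉ pCore p G ∧ iterCommutator A (zpowers g) 3 ≤ A ⊓ centralizer (A : Set G) ∧
      ⁅⁅A ⊓ centralizer (A : Set G), zpowers g⁆, zpowers g⁆ = ⊥ ∧
      ∃ U V : Subgroup G, IsChiefFactor U V ∧ U ≤ A ∧ ⁅⁅U, zpowers g⁆, zpowers g⁆ ≤ V ∧ ¬ ⁅U, zpowers g⁆ ≤ V := by
  by_contra hno
  push Not at hno
  haveI hTn : (pCore p G).Normal := CfsgLib.PLocal.pCore_normal'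
  have hTp : IsPGroup p (pCore p G) := CfsgLib.PLocal.pCore_isPGroup
  have hTS : pCore p G ≤ (S : Subgroup G) := hTp.le_sylow_of_normal S
  have hAp : IsPGroup p A := hTp.to_le hAT
  have hSN : ∀ R : Subgroup G, R ≤ normalizer (A : Set G) := by
    intro R
    rw [normalizer_eq_top_iff.mpr hAn]
    exact le_top
  obtain ⟨Ac, m, k, hc, hA0, hAm, hAk⟩ := exists_chain A (A ⊓ centralizer (A : Set G)) hAn (center_normal_of_normal A) inf_le_left
  have hAcA : ∀ e, Ac e ≤ A := fun e => (hc.anti (Nat.zero_le e)).trans hA0.le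
  -- the negated conclusion on all chain levels
  have NQ : ∀ g ∈ (S : Subgroup G), iterCommutator A (zpowers g) 3 ≤ A ⊓ centralizer (A : Set G) →
      ⁅⁅A ⊓ centralizer (A : Set G), zpowers g⁆, zpowers g⁆ = ⊥ →
      ∀ e, ⁅⁅Ac e, zpowers g⁆, zpowers g⁆ ≤ Ac (e + 1) → ∀ x ∈ Ac e, ⁅x, g⁆ ∈ Ac (e + 1) := by
    intro g hg h3 h2 e hq x hx
    rcases hc.hc e with heq | hch
    · rw [heq]
      haveI := hc.hn e
      exact comm_mem_normal hx g
    · by_cases hgT : g ∈ pCore p G
      · exact chief_comm (pCore p G) hTp hch ((hAcA e).trans hAT) x hx g hgT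
      · have h5 := hno g hg hgT h3 h2 (Ac e) (Ac (e + 1)) hch (hAcA e) hq
        exact h5 (Subgroup.commutator_mem_commutator hx (mem_zpowers g))
  have hSt : Pl ⊤ Ac hc.hn 1 ≤ pCore p G := by
    refine stab_le_pCore hc hAk (by rw [hA0]; exact hAp) hC ?_
    intro t ht htc
    rw [hA0] at ht
    exact critical_hCk hTp hAT hTA hTC ht htc
  have hT_of : ∀ g : G, (∀ e, ∀ x ∈ Ac e, ⁅x, g⁆ ∈ Ac (e + 1)) → g ∈ pCore p G :=
    fun g h => hSt ⟨trivial, fun e a ha => h e a ha⟩
  have hk : KData (S : Subgroup G) (pCore p G) A := by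
    refine ⟨hTS, hAT, hA2, hTA, ⟨hA2, hSN _, ?_⟩, ?_, ?_⟩
    · -- `A` lies in the lower family
      intro A' hA'cl hA'S hn hder hZ
      have hA'T : A' ≤ pCore p G := by
        intro g hg
        obtain ⟨h1, h2⟩ := sub_elem hA'cl hn hZ hg
        refine hT_of g fun e x hx => NQ g (hA'S hg) (by rw [h1]; exact bot_le) h2 e ?_ x hx
        rcases Nat.lt_or_ge e m with hem | hem
        · have hz := zp_le hg
          have h3 : ⁅⁅Ac e, zpowers g⁆, zpowers g⁆ ≤ A ⊓ centralizer (A : Set G) := by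
            refine le_inf ?_ ?_
            · haveI := hc.hn e
              refine le_trans ?_ (hAcA e)
              exact iter_le (Ac e) (zpowers g) 2
            · have h6 : ⁅Ac e, zpowers g⁆ ≤ A' :=
                (Subgroup.commutator_mono (hAcA e) hz).trans (comm_le_right_of_norm hn)
              have h7 : ⁅⁅Ac e, zpowers g⁆, zpowers g⁆ ≤ ⁅A', A'⁆ := Subgroup.commutator_mono h6 hz
              rw [Subgroup.commutator_eq_bot_iff_le_centralizer] at hder
              have h8 : ⁅A', A'⁆ ≤ centralizer (A : Set G) := Subgroup.le_centralizer_iff.mp hder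
              exact h7.trans h8
          refine h3.trans ?_
          rw [← hAm]
          exact hc.anti (by omega)
        · have h1' : Ac e ≤ A ⊓ centralizer (A : Set G) := by
            rw [← hAm]
            exact hc.anti hem
          have h3 : ⁅⁅Ac e, zpowers g⁆, zpowers g⁆ ≤ ⁅⁅A ⊓ centralizer (A : Set G), zpowers g⁆, zpowers g⁆ :=
            Subgroup.commutator_mono (Subgroup.commutator_mono h1' le_rfl) le_rfl
          rw [h2] at h3
          exact h3.trans bot_le
      rw [Subgroup.commutator_comm]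
      exact (Subgroup.commutator_mono hA'T le_rfl).trans hTA
    · -- the upper family
      intro Q B hAQ hB hBS g hg
      have h1 := upper_elem hAQ hB hg
      have h3 : iterCommutator A (zpowers g) 3 ≤ A ⊓ centralizer (A : Set G) := by
        show ⁅⁅⁅A, zpowers g⁆, zpowers g⁆, zpowers g⁆ ≤ _
        rw [h1, Subgroup.commutator_bot_left]
        exact bot_le
      have h2 : ⁅⁅A ⊓ centralizer (A : Set G), zpowers g⁆, zpowers g⁆ = ⊥ := by
        rw [eq_bot_iff, ← h1]
        exact Subgroup.commutator_mono (Subgroup.commutator_mono inf_le_left le_rfl) le_rfl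
      refine hT_of g fun e x hx => NQ g (hBS hg) h3 h2 e ?_ x hx
      have h4 : ⁅⁅Ac e, zpowers g⁆, zpowers g⁆ ≤ ⁅⁅A, zpowers g⁆, zpowers g⁆ :=
        Subgroup.commutator_mono (Subgroup.commutator_mono (hAcA e) le_rfl) le_rfl
      rw [h1] at h4
      exact h4.trans bot_le
    · -- the lower family
      intro Q B hAQ hB hBS
      have hBA := hSN B
      have hZT : B ⊓ centralizer (B : Set G) ≤ pCore p G := by
        intro u hu
        obtain ⟨hu1, hu2⟩ := mem_inf.mp hu
        have h1 : ⁅A, zpowers u⁆ ≤ B := (Subgroup.commutator_mono le_rfl (zp_le hu1)).trans (comm_le_right_of_norm (hAQ.trans hB.2.1))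
        have h2 : ⁅⁅A, zpowers u⁆, zpowers u⁆ = ⊥ := by
          rw [Subgroup.commutator_comm, Subgroup.commutator_eq_bot_iff_le_centralizer]
          rw [zpowers_le]
          exact Subgroup.centralizer_le (by exact_mod_cast h1) hu2
        have h3 : iterCommutator A (zpowers u) 3 ≤ A ⊓ centralizer (A : Set G) := by
          show ⁅⁅⁅A, zpowers u⁆, zpowers u⁆, zpowers u⁆ ≤ _
          rw [h2, Subgroup.commutator_bot_left]
          exact bot_le
        have h4 : ⁅⁅A ⊓ centralizer (A : Set G), zpowers u⁆, zpowers u⁆ = ⊥ := by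
          rw [eq_bot_iff, ← h2]
          exact Subgroup.commutator_mono (Subgroup.commutator_mono inf_le_left le_rfl) le_rfl
        refine hT_of u fun e x hx => NQ u (hBS hu1) h3 h4 e ?_ x hx
        have h5 : ⁅⁅Ac e, zpowers u⁆, zpowers u⁆ ≤ ⁅⁅A, zpowers u⁆, zpowers u⁆ :=
          Subgroup.commutator_mono (Subgroup.commutator_mono (hAcA e) le_rfl) le_rfl
        rw [h2] at h5
        exact h5.trans bot_le
      have hZB : ⁅B ⊓ centralizer (B : Set G), A⁆ ≤ A ⊓ centralizer (A : Set G) :=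
        (Subgroup.commutator_mono hZT le_rfl).trans hTA
      have hst := lower_stab hc hA0 hAm hAk hAp hA2 hAQ hB hZB (fun g hg e hq x hx => by
        obtain ⟨h1, h2⟩ := lower_elem hBA hAQ hB hg
        exact NQ g (hBS hg) (by rw [h1]; exact bot_le) h2 e hq x hx)
      intro g hg
      exact hT_of g fun e x hx => hst e x hx g hg
  rcases hK with hK | hK
  · apply hK
    rw [hk.lower_eq]
    exact induced_normal_of_normal kInfLower_char _ hTp
  · apply hK
    rw [hk.upper_eq]
    exact induced_normal_of_normal kInfUpper_char _ hTp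

end Main

end CfsgLib.KI
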